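import Groth.Agent.Dual.H306.BCPushQ
import Groth.Agent.Dual.H307.MonComp

/-!
# Flat base change in the form of mates, for arbitrary adjunctions

* `mate_app_eq_bcP`: the mate of `c` is the base change map `Formal.bcP` of `eOf c`;
* `cD_hom`: the canonical identification `Lf'^* Lg^* ≅ Lg'^* Lf^*` through `MonComp.dComp`; `isMonoidal_cD`;
* `isIso_mate`: for a cartesian square with `f` qcqs and `f` or `g` flat the mate of `cD w` at quasi-coherent objects is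
  an isomorphism, for arbitrary adjunctions `Lf^* ⊣ F`, `Lf'^* ⊣ F'`;
* `isIso_mate_OD`: the case of `O_X`.
-/

set_option autoImplicit false

universe u

open CategoryTheory CategoryTheory.Limits AlgebraicGeometry

attribute [local instance] HasDerivedCategory.standard

namespace Groth.Agent.Dual.H304.ClosedBC

open Groth.Agent.Dual.H306 Groth.Agent.Dual.H307

section Abs

universe v₁ v₂ v₃ v₄ u₁ u₂ u₃ u₄

variable {C : Type u₁} [Category.{v₁} C] {D : Type u₂} [Category.{v₂} D]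
  {C' : Type u₃} [Category.{v₃} C'] {D' : Type u₄} [Category.{v₄} D']
  {Rf : C ⥤ D} {Rf' : C' ⥤ D'} {Rg : D' ⥤ D} {Rg' : C' ⥤ C} {Lg : D ⥤ D'} {Lg' : C ⥤ C'}
  {Lf : D ⥤ C} {Lf' : D' ⥤ C'} (adjf : Lf ⊣ Rf) (adjf' : Lf' ⊣ Rf') (adjg : Lg ⊣ Rg)
  (adjg' : Lg' ⊣ Rg') (c : Lg ⋙ Lf' ≅ Lf ⋙ Lg')

lemma isBC_mate (K : C) : Formal.IsBC adjf adjf' c K ((MonNat.mate adjf adjf' c.hom).app K) :=
  MonNat.map_mate_app_counit adjf adjf' c.hom K

lemma mate_app_eq_bcP (K : C) : (MonNat.mate adjf adjf' c.hom).app K =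
    Formal.bcP adjg adjg' (Formal.eOf adjf adjf' adjg adjg' c) K :=
  (isBC_mate adjf adjf' c K).unique adjf adjf' c (Formal.isBC_bcP adjf adjf' adjg adjg' c K)

end Abs

section Can

open Groth.Agent.PerfB.BCTot Groth.Agent.PerfB.BCTot.Tot Groth.Agent.PerfB.BCSch Groth.Agent.Dual.H306.BCPushQ
  Groth.Agent.Dcoh.BCFrozen1058 Groth.Agent.Dcoh.BCCanon300 Groth.Agent.PerfB.BCShift

variable {X Y X' Y' : Scheme.{u}} {f : X ⟶ Y} {g : Y' ⟶ Y} {f' : X' ⟶ Y'} {g' : X' ⟶ X}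
  (w : g' ≫ f = f' ≫ g) [DCoh.HasLpull f] [DCoh.HasLpull f'] [DCoh.HasLpull g] [DCoh.HasLpull g']

open scoped Groth.Agent.Dual.H307.MonComp

/-- Base change in the form of mates, from `BC`. -/
theorem isIso_mate_of_BC {F : DCoh.D X ⥤ DCoh.D Y} (adj : DCoh.Lpull f ⊣ F)
    {F' : DCoh.D X' ⥤ DCoh.D Y'} (adj' : DCoh.Lpull f' ⊣ F') (K : DCoh.D X)
    (h : BC (cartLift (P := dPull.{u}) ⟨X, K⟩ g') f f' g) :
    IsIso ((MonNat.mate adj adj' (cD w).hom).app K) := by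
  have := Groth.Agent.Dcoh.DerSch.hasRpush g
  have := Groth.Agent.Dcoh.DerSch.hasRpush g'
  rw [mate_app_eq_bcP adj adj' (lAdj g) (lAdj g') (cD w) K]
  exact isIso_bcP_of_BC dPull.{u} w (pull_eq f) (pull_eq f') (pull_eq g) (pull_eq g') (cD w) (cD_heq w)
    adj adj' (lAdj g) (lAdj g') K h

/-- Flat base change in the form of mates. -/
theorem isIso_mate [QuasiCompact f] [QuasiSeparated f] (hflat : Flat f ∨ Flat g)
    (sq : IsPullback g' f' f g) {F : DCoh.D X ⥤ DCoh.D Y} (adj : DCoh.Lpull f ⊣ F)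
    {F' : DCoh.D X' ⥤ DCoh.D Y'} (adj' : DCoh.Lpull f' ⊣ F') (K : DCoh.D X) (hK : DCoh.IsQCohD K) :
    IsIso ((MonNat.mate adj adj' (cD sq.w).hom).app K) :=
  isIso_mate_of_BC sq.w adj adj' K (BCLeft.bc_tor hflat sq K hK)

/-- The case of `O_X`. -/
theorem isIso_mate_OD [QuasiCompact f] [QuasiSeparated f] (hflat : Flat f ∨ Flat g)
    (sq : IsPullback g' f' f g) {F : DCoh.D X ⥤ DCoh.D Y} (adj : DCoh.Lpull f ⊣ F)
    {F' : DCoh.D X' ⥤ DCoh.D Y'} (adj' : DCoh.Lpull f' ⊣ F') :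
    IsIso ((MonNat.mate adj adj' (cD sq.w).hom).app (DCoh.inD X (Coh.structureModule X))) :=
  isIso_mate hflat sq adj adj' _
    (Groth.Agent.PerfA.QCohD.isQCohD_inD _ (Ega2.QCohLocal.isQCoh_structureModule X))

end Can

section Mon

open Groth.Agent.PerfB.BCTot Groth.Agent.PerfB.BCTot.Tot Groth.Agent.PerfB.BCSch Groth.Agent.Dual.H306.BCPushQ
  Groth.Agent.Dcoh.BCFrozen1058 Groth.Agent.Dcoh.BCCanon300 Groth.Agent.PerfB.BCShift
  Groth.Agent.Dual.H307.MonComp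
open scoped Groth.Agent.Dcoh.MonCat Groth.Agent.Dcoh.ModD Groth.Agent.Dcoh.MonPull

/-- `eqToHom` between derived pullbacks is monoidal. -/
theorem isMonoidal_eqToHom {X Y : Scheme.{u}} {p q : X ⟶ Y} [DCoh.HasLpull p] [DCoh.HasLpull q] (h : p = q)
    (h' : DCoh.Lpull p = DCoh.Lpull q) : NatTrans.IsMonoidal (eqToHom h') := by
  subst h
  rw [eqToHom_refl]
  infer_instance

variable {X Y X' Y' : Scheme.{u}} {f : X ⟶ Y} {g : Y' ⟶ Y} {f' : X' ⟶ Y'} {g' : X' ⟶ X}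
  (w : g' ≫ f = f' ≫ g) [DCoh.HasLpull f] [DCoh.HasLpull f'] [DCoh.HasLpull g] [DCoh.HasLpull g']
  [DCoh.HasLpull (f' ≫ g)] [DCoh.HasLpull (g' ≫ f)]

instance isIso_dComp {X Y Z : Scheme.{u}} (f : X ⟶ Y) (g : Y ⟶ Z) [DCoh.HasLpull f] [DCoh.HasLpull g]
    [DCoh.HasLpull (f ≫ g)] : IsIso (dComp f g) :=
  inferInstanceAs (IsIso (schDer.compT f g))

omit w in
theorem lpull_congr {X Y : Scheme.{u}} {p q : X ⟶ Y} [DCoh.HasLpull p] [DCoh.HasLpull q] (h : p = q) :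
    DCoh.Lpull p = DCoh.Lpull q := by
  subst h
  rfl

/-- The canonical identification through the composition isomorphisms. -/
lemma cD_hom : (cD w).hom = dComp f' g ≫ eqToHom (lpull_congr w.symm) ≫ inv (dComp g' f) :=
  rfl

/-- The canonical identification is monoidal. -/
instance isMonoidal_cD : NatTrans.IsMonoidal (cD w).hom := by
  have h1 : NatTrans.IsMonoidal (eqToHom (lpull_congr w.symm : DCoh.Lpull (f' ≫ g) = DCoh.Lpull (g' ≫ f))) :=
    isMonoidal_eqToHom w.symm _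
  have h3 : NatTrans.IsMonoidal (asIso (dComp g' f)).hom := isMonoidal_dComp g' f
  have h2 : NatTrans.IsMonoidal (inv (dComp g' f)) :=
    (inferInstance : NatTrans.IsMonoidal (asIso (dComp g' f)).inv)
  rw [cD_hom]
  infer_instance

end Mon

end Groth.Agent.Dual.H304.ClosedBC
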